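import Mathlib

/-!
# Codes of permutations and of formal sums

Permutations of at most 16 points are coded as numbers in base 16; formal sums of points are coded
as lists of digits, and compared through a packed vector of multiplicities.
-/

set_option autoImplicit false

namespace CfsgLib.CentSol

open Equiv Finset

/-- force the kernel to evaluate `x` to a numeral before continuing with `k` -/
noncomputable def force {β : Type} (x : ℕ) (k : ℕ → β) : β :=
  Nat.rec (motive := fun _ => β) (k 0) (fun m _ => k (Nat.succ m)) x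

theorem force_eq {β : Type} (x : ℕ) (k : ℕ → β) : force x k = k x := by
  cases x <;> rfl

/-- digit number `i` of `c` in base `2 ^ w` -/
def dig (w c i : ℕ) : ℕ := Nat.mod (Nat.shiftRight c (Nat.mul w i)) (Nat.pow 2 w)

theorem dig_eq (w c i : ℕ) : dig w c i = c / 2 ^ (w * i) % 2 ^ w := by
  show (c >>> (w * i)) % 2 ^ w = _
  rw [Nat.shiftRight_eq_div_pow]

theorem dig_lt (w c i : ℕ) : dig w c i < 2 ^ w := by
  rw [dig_eq]; exact Nat.mod_lt _ (by positivity)

/-- the number with digits `f 0, …, f (n - 1)` -/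
noncomputable def mk (w : ℕ) (f : ℕ → ℕ) (n : ℕ) : ℕ :=
  Nat.rec 0 (fun i acc => Nat.add acc (Nat.shiftLeft (f i) (Nat.mul w i))) n

theorem mk_succ (w : ℕ) (f : ℕ → ℕ) (n : ℕ) : mk w f (n + 1) = mk w f n + f n * 2 ^ (w * n) := by
  show mk w f n + (f n) <<< (w * n) = _
  rw [Nat.shiftLeft_eq]

theorem mk_eq (w : ℕ) (f : ℕ → ℕ) (n : ℕ) : mk w f n = ∑ i ∈ range n, f i * 2 ^ (w * i) := by
  induction n with
  | zero => rfl
  | succ n ih => rw [mk_succ, sum_range_succ, ih]

theorem mk_lt {w : ℕ} {f : ℕ → ℕ} {n : ℕ} (hf : ∀ i < n, f i < 2 ^ w) : mk w f n < 2 ^ (w * n) := by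
  induction n with
  | zero => show 0 < _; positivity
  | succ n ih =>
    have h1 := ih fun i hi => hf i (by omega)
    have h2 := hf n (by omega)
    rw [mk_succ, Nat.mul_succ, pow_add]
    nlinarith [Nat.mul_le_mul_right (2 ^ (w * n)) (Nat.succ_le_of_lt h2)]

theorem dig_mk {w : ℕ} {f : ℕ → ℕ} {n : ℕ} (hf : ∀ i < n, f i < 2 ^ w) {i : ℕ} (hi : i < n) :
    dig w (mk w f n) i = f i := by
  induction n with
  | zero => omega
  | succ n ih =>
    have hf' : ∀ i < n, f i < 2 ^ w := fun i hi => hf i (by omega)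
    rw [mk_succ, dig_eq]
    rcases Nat.lt_succ_iff_lt_or_eq.1 hi with h | rfl
    · obtain ⟨d, rfl⟩ := Nat.exists_eq_add_of_lt h
      have e : f (i + d + 1) * 2 ^ (w * (i + d + 1)) = 2 ^ (w * i) * (2 ^ w * (f (i + d + 1) * 2 ^ (w * d))) := by
        ring
      rw [e, Nat.add_mul_div_left _ _ (by positivity), Nat.add_mul_mod_self_left, ← dig_eq, ih hf' h]
    · rw [Nat.add_mul_div_right _ _ (by positivity), Nat.div_eq_of_lt (mk_lt hf'), zero_add,
        Nat.mod_eq_of_lt (hf i hi)]

/-- `f i` for all `i < n` -/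
noncomputable def allB (f : ℕ → Bool) (n : ℕ) : Bool :=
  Nat.rec true (fun i ih => Bool.rec false ih (f i)) n

theorem allB_iff {f : ℕ → Bool} {n : ℕ} : allB f n = true ↔ ∀ i < n, f i = true := by
  induction n with
  | zero => simp [allB]
  | succ n ih =>
    have : allB f (n + 1) = (f n && allB f n) := by
      show (Bool.rec false (allB f n) (f n) : Bool) = _
      cases f n <;> rfl
    rw [this, Bool.and_eq_true, ih]
    exact ⟨fun h i hi => (Nat.lt_succ_iff_lt_or_eq.1 hi).elim (h.2 i) (fun e => e ▸ h.1),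
      fun h => ⟨h n (by omega), fun i hi => h i (by omega)⟩⟩

/-- entry number `i` of a list, passed to a continuation -/
noncomputable def nthK {α β : Type} (l : List α) (d : β) (k : α → β) : ℕ → β :=
  List.rec (fun _ => d) (fun a _ ih i => Nat.rec (k a) (fun j _ => ih j) i) l

theorem nthK_spec {α β : Type} (l : List α) (d : β) (k : α → β) (i : ℕ) :
    nthK l d k i = d ∨ ∃ a ∈ l, nthK l d k i = k a := by
  induction l generalizing i with
  | nil => exact Or.inl rfl
  | cons a l ih =>
    rcases i with _ | i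
    · exact Or.inr ⟨a, List.mem_cons_self, rfl⟩
    · exact (ih i).imp id fun ⟨b, hb, e⟩ => ⟨b, List.mem_cons_of_mem _ hb, e⟩

theorem nthK_true {α : Type} {l : List α} {k : α → Bool} {i : ℕ} (h : nthK l false k i = true) :
    ∃ a ∈ l, k a = true := by
  rcases nthK_spec l false k i with e | ⟨a, ha, e⟩
  · rw [e] at h; cases h
  · exact ⟨a, ha, e ▸ h⟩

/-! ### Permutations -/

/-- the code of a product -/
noncomputable def mulc (n c d : ℕ) : ℕ := mk 4 (fun i => dig 4 c (dig 4 d i)) n

/-- the code of the identity -/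
noncomputable def idc (n : ℕ) : ℕ := mk 4 (fun i => i) n

/-- the code of a transposition -/
noncomputable def swc (n a b : ℕ) : ℕ := mk 4 (fun i => if i = a then b else if i = b then a else i) n

/-- `c` codes `g` -/
def PR {n : ℕ} (c : ℕ) (g : Perm (Fin n)) : Prop := ∀ i : Fin n, (g i : ℕ) = dig 4 c i

variable {n : ℕ}

theorem PR.unique {c : ℕ} {g h : Perm (Fin n)} (hg : PR c g) (hh : PR c h) : g = h :=
  Equiv.ext fun i => Fin.ext ((hg i).trans (hh i).symm)

theorem PR.mul {c d : ℕ} {g h : Perm (Fin n)} (hg : PR c g) (hh : PR d h) : PR (mulc n c d) (g * h) := fun i => by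
  rw [mulc, dig_mk (fun _ _ => dig_lt _ _ _) i.2, Perm.mul_apply, hg, hh]

theorem PR.one (hn : n ≤ 16) : PR (idc n) (1 : Perm (Fin n)) := fun i => by
  rw [idc, dig_mk (fun j hj => by omega) i.2, Perm.one_apply]

theorem PR.swap (hn : n ≤ 16) (a b : Fin n) : PR (swc n a b) (Equiv.swap a b) := fun i => by
  have ha := a.2
  have hb := b.2
  rw [swc, dig_mk (fun j hj => by split_ifs <;> omega) i.2, swap_apply_def]
  simp only [Fin.ext_iff]
  split_ifs <;> rfl

/-- sort a code by transpositions, keeping the parity -/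
noncomputable def parB (n fuel : ℕ) : ℕ → Bool → Bool :=
  Nat.rec (fun c par => Nat.beq c (idc n) && !par)
    (fun i ih c par => force (dig 4 c i) fun j => Bool.rec
      (force (mulc n (swc n i j) c) fun c' => Nat.blt i n && Nat.blt j n && Nat.beq c (mulc n (swc n i j) c') &&
        ih c' (!par)) (ih c par) (Nat.beq j i)) fuel

theorem parB_sound (hn : n ≤ 16) (fuel : ℕ) : ∀ (c : ℕ) (par : Bool), parB n fuel c par = true →
    ∃ g : Perm (Fin n), PR c g ∧ Perm.sign g = if par then -1 else 1 := by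
  induction fuel with
  | zero =>
    intro c par h
    have h' : (Nat.beq c (idc n) && !par) = true := h
    simp only [Bool.and_eq_true, Nat.beq_eq, Bool.not_eq_true'] at h'
    obtain ⟨rfl, rfl⟩ := h'
    exact ⟨1, PR.one hn, by simp⟩
  | succ i ih =>
    intro c par h
    have h' : (force (dig 4 c i) fun j => Bool.rec
      (force (mulc n (swc n i j) c) fun c' => Nat.blt i n && Nat.blt j n && Nat.beq c (mulc n (swc n i j) c') &&
        parB n i c' (!par)) (parB n i c par) (Nat.beq j i) : Bool) = true := h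
    rw [force_eq] at h'
    cases e : Nat.beq (dig 4 c i) i
    · rw [e] at h'
      simp only [force_eq, Bool.and_eq_true, Nat.blt_eq, Nat.beq_eq] at h'
      obtain ⟨⟨⟨h1, h2⟩, h3⟩, h4⟩ := h'
      obtain ⟨g, hg, hs⟩ := ih _ _ h4
      refine ⟨Equiv.swap ⟨i, h1⟩ ⟨_, h2⟩ * g, ?_, ?_⟩
      · have := (PR.swap hn ⟨i, h1⟩ ⟨_, h2⟩).mul hg
        rwa [← h3] at this
      · have hne : (⟨i, h1⟩ : Fin n) ≠ ⟨_, h2⟩ := fun e' =>
          Nat.ne_of_beq_eq_false e (congrArg Fin.val e').symm
        rw [map_mul, Perm.sign_swap hne, hs]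
        cases par <;> simp
    · rw [e] at h'
      exact ih _ _ h'

/-- `c` codes an even permutation -/
noncomputable def evB (n c : ℕ) : Bool := parB n n c false

theorem evB_sound (hn : n ≤ 16) {c : ℕ} (h : evB n c = true) : ∃ g : Perm (Fin n), PR c g ∧ Perm.sign g = 1 :=
  parB_sound hn n c false h

/-- a list of codes, each the product of a generator and an earlier code -/
noncomputable def clB (n : ℕ) (gs : List ℕ) (lst dat len : ℕ) : Bool :=
  Nat.beq (dig 40 lst 0) (idc n) && allB (fun j => Nat.beq j 0 || force (dig 16 dat j) fun d =>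
    Nat.blt (Nat.div d 16) j && nthK gs false (fun c => force (dig 40 lst (Nat.div d 16)) fun e =>
      Nat.beq (dig 40 lst j) (mulc n c e)) (Nat.mod d 16)) len

theorem clB_sound {gs : List ℕ} {lst dat len : ℕ} (h : clB n gs lst dat len = true) {Q : ℕ → Prop}
    (h1 : Q (idc n)) (h2 : ∀ c ∈ gs, ∀ d, Q d → Q (mulc n c d)) :
    dig 40 lst 0 = idc n ∧ ∀ j < len, Q (dig 40 lst j) := by
  simp only [clB, Bool.and_eq_true, Nat.beq_eq, allB_iff, Bool.or_eq_true, force_eq, Nat.blt_eq] at h
  refine ⟨h.1, fun j => ?_⟩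
  induction j using Nat.strong_induction_on with
  | _ j ih =>
    intro hj
    rcases h.2 j hj with rfl | ⟨h3, h4⟩
    · exact h.1 ▸ h1
    · obtain ⟨c, hc, e⟩ := nthK_true h4
      rw [Nat.beq_eq] at e
      exact e ▸ h2 c hc _ (ih _ h3 (h3.trans hj))

/-! ### Formal sums -/

variable {V : Type*} [AddCommGroup V]

/-- the value of a list of points -/
def ev (u : ℕ → V) (len code : ℕ) : V := ∑ k ∈ range len, u (dig 10 code k)

/-- the packed multiplicities of a list of points -/
noncomputable def enc (len code : ℕ) : ℕ :=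
  Nat.rec 0 (fun k acc => Nat.add acc (Nat.shiftLeft 1 (Nat.mul 32 (dig 10 code k)))) len

/-- `x` packs multiplicities at most `w` of a formal sum of value `v` -/
def Pk (N : ℕ) (u : ℕ → V) (x w : ℕ) (v : V) : Prop :=
  ∃ f : ℕ → ℕ, x = ∑ i ∈ range N, f i * 2 ^ (32 * i) ∧ (∀ i < N, f i ≤ w) ∧ v = ∑ i ∈ range N, f i • u i

variable {N : ℕ} {u : ℕ → V}

theorem Pk.zero : Pk N u 0 0 0 := ⟨fun _ => 0, by simp, fun _ _ => le_rfl, by simp⟩

theorem Pk.add {x w x' w' : ℕ} {v v' : V} (h : Pk N u x w v) (h' : Pk N u x' w' v') :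
    Pk N u (x + x') (w + w') (v + v') := by
  obtain ⟨f, rfl, h1, rfl⟩ := h
  obtain ⟨f', rfl, h2, rfl⟩ := h'
  exact ⟨fun i => f i + f' i, by simp only [add_mul, sum_add_distrib],
    fun i hi => add_le_add (h1 i hi) (h2 i hi), by simp only [add_smul, sum_add_distrib]⟩

theorem Pk.smul (c : ℕ) {x w : ℕ} {v : V} (h : Pk N u x w v) : Pk N u (c * x) (c * w) (c • v) := by
  obtain ⟨f, rfl, h1, rfl⟩ := h
  exact ⟨fun i => c * f i, by simp only [mul_sum, mul_assoc],
    fun i hi => Nat.mul_le_mul_left c (h1 i hi), by simp only [smul_sum, mul_smul]⟩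

theorem Pk.single {i : ℕ} (hi : i < N) : Pk N u (1 <<< (32 * i)) 1 (u i) := by
  refine ⟨fun j => if j = i then 1 else 0, ?_, fun j _ => by dsimp only; split_ifs <;> omega, ?_⟩
  · simp [Nat.shiftLeft_eq, hi]
  · simp [hi]

theorem Pk.enc {len code : ℕ} (h : ∀ k < len, dig 10 code k < N) : Pk N u (enc len code) len (ev u len code) := by
  induction len with
  | zero => exact Pk.zero
  | succ k ih =>
    rw [ev, sum_range_succ]
    exact (ih fun j hj => h j (by omega)).add (Pk.single (h k (by omega)))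

/-- all multiplicities are multiples of `p` -/
noncomputable def zeroB (N p x w : ℕ) : Bool :=
  Nat.blt w 4294967296 && force x fun y => allB (fun i => Nat.beq (Nat.mod (dig 32 y i) p) 0) N

theorem Pk.eq_zero {p x w : ℕ} {v : V} (h : Pk N u x w v) (hp : ∀ v : V, p • v = 0) (hz : zeroB N p x w = true) :
    v = 0 := by
  obtain ⟨f, rfl, h1, rfl⟩ := h
  simp only [zeroB, Bool.and_eq_true, Nat.blt_eq, force_eq, allB_iff, Nat.beq_eq] at hz
  refine sum_eq_zero fun i hi => ?_
  have h2 := hz.2 i (mem_range.1 hi)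
  rw [← mk_eq, dig_mk (fun j hj => (h1 j hj).trans_lt hz.1) (mem_range.1 hi)] at h2
  obtain ⟨q, e⟩ := Nat.dvd_of_mod_eq_zero h2
  rw [e, mul_smul, hp]

end CfsgLib.CentSol
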