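import Mathlib
import Cfsg.Agent.Lib.CentSol.Code

/-!
# Certificates for vanishing of fixed vectors

A group `K` acts on an abelian group `V` of exponent `p` through a permutation group containing the
alternating group, all non-zero vectors having solvable stabilisers.  `Z L` says that a vector on which
the codes of `L` act by the listed scalars vanishes.  A certificate deduces `Z L` from earlier such
facts by linear algebra in a permutation module.
-/

set_option autoImplicit false

namespace CfsgLib.CentSol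

open Equiv Finset

/-- the setting -/
structure Ctx (K V : Type*) [Group K] [AddCommGroup V] [DistribMulAction K V] (n p : ℕ) where
  ρ : K →* Perm (Fin n)
  hn : n ≤ 16
  ker : ∀ k, ρ k = 1 → ∀ v : V, k • v = v
  sur : ∀ g : Perm (Fin n), Perm.sign g = 1 → ∃ k, ρ k = g
  tor : ∀ v : V, p • v = 0
  sol : ∀ v : V, v ≠ 0 → Group.IsSolvable (MulAction.stabilizer K v)

variable {K V : Type*} [Group K] [AddCommGroup V] [DistribMulAction K V] {n p : ℕ} (C : Ctx K V n p)

namespace Ctx

/-- the code has a preimage -/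
def Good (c : ℕ) : Prop := ∃ k, PR c (C.ρ k)

open Classical in
/-- a preimage -/
noncomputable def el (c : ℕ) : K := if h : C.Good c then h.choose else 1

variable {C}

theorem Good.pr {c : ℕ} (h : C.Good c) : PR c (C.ρ (C.el c)) := by
  rw [el, dif_pos h]; exact h.choose_spec

theorem smul_eq {c : ℕ} {k : K} (h : PR c (C.ρ k)) (v : V) : C.el c • v = k • v := by
  have h1 : C.ρ (k⁻¹ * C.el c) = 1 := by
    rw [map_mul, map_inv, (Good.pr ⟨k, h⟩).unique h, inv_mul_cancel]
  have := C.ker _ h1 v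
  rw [mul_smul, inv_smul_eq_iff] at this
  exact this

theorem Good.mul {c d : ℕ} (hc : C.Good c) (hd : C.Good d) : C.Good (mulc n c d) :=
  ⟨C.el c * C.el d, map_mul C.ρ _ _ ▸ hc.pr.mul hd.pr⟩

theorem Good.mul_smul {c d : ℕ} (hc : C.Good c) (hd : C.Good d) (v : V) :
    C.el (mulc n c d) • v = C.el c • C.el d • v := by
  rw [smul_eq (k := C.el c * C.el d) (map_mul C.ρ _ _ ▸ hc.pr.mul hd.pr), SemigroupAction.mul_smul]

theorem good_one : C.Good (idc n) := ⟨1, map_one C.ρ ▸ PR.one C.hn⟩

theorem one_smul' (v : V) : C.el (idc n) • v = v := by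
  rw [smul_eq (k := 1) (map_one C.ρ ▸ PR.one C.hn), one_smul]

theorem good_of {c : ℕ} (h : evB n c = true) : C.Good c := by
  obtain ⟨g, h1, h2⟩ := evB_sound C.hn h
  obtain ⟨k, rfl⟩ := C.sur g h2
  exact ⟨k, h1⟩

variable (C)

/-- a vector with the listed eigenvalues vanishes -/
def Z (L : List (ℕ × ℕ)) : Prop := ∀ v : V, (∀ e ∈ L, C.el e.1 • v = e.2 • v) → v = 0

end Ctx

/-- a word in two codes -/
noncomputable def wd (n a b : ℕ) (w : List Bool) : ℕ :=
  List.rec (idc n) (fun t _ ih => force ih fun e => mulc n (Bool.rec a b t) e) w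

/-- two codes that are commutators of words in themselves -/
noncomputable def perfB (n a b : ℕ) (w₁ w₂ w₃ w₄ : List Bool) : Bool :=
  evB n a && evB n b && !allB (fun i => Nat.beq (dig 4 a i) i) n &&
    Nat.beq (mulc n (wd n a b w₁) (wd n a b w₂)) (mulc n a (mulc n (wd n a b w₂) (wd n a b w₁))) &&
    Nat.beq (mulc n (wd n a b w₃) (wd n a b w₄)) (mulc n b (mulc n (wd n a b w₄) (wd n a b w₃)))

theorem wd_mem (hn : n ≤ 16) {a b : ℕ} {g h : Perm (Fin n)} (ha : PR a g) (hb : PR b h) (w : List Bool) :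
    ∃ x : Perm (Fin n), PR (wd n a b w) x ∧ ∀ D : Subgroup (Perm (Fin n)), g ∈ D → h ∈ D → x ∈ D := by
  induction w with
  | nil => exact ⟨1, PR.one hn, fun D _ _ => one_mem D⟩
  | cons t w ih =>
    obtain ⟨x, h1, h2⟩ := ih
    have e : wd n a b (t :: w) = mulc n (Bool.rec a b t) (wd n a b w) := force_eq _ _
    rw [e]
    cases t
    · exact ⟨g * x, ha.mul h1, fun D hg hh => mul_mem hg (h2 D hg hh)⟩
    · exact ⟨h * x, hb.mul h1, fun D hg hh => mul_mem hh (h2 D hg hh)⟩

theorem comm_mem (hn : n ≤ 16) {a b c : ℕ} {g h k : Perm (Fin n)} (ha : PR a g) (hb : PR b h) (hc : PR c k)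
    {w₁ w₂ : List Bool}
    (e : mulc n (wd n a b w₁) (wd n a b w₂) = mulc n c (mulc n (wd n a b w₂) (wd n a b w₁)))
    {D : Subgroup (Perm (Fin n))} (hg : g ∈ D) (hh : h ∈ D) : k ∈ ⁅D, D⁆ := by
  obtain ⟨x, h1, h2⟩ := wd_mem hn ha hb w₁
  obtain ⟨y, h3, h4⟩ := wd_mem hn ha hb w₂
  have h5 := (e ▸ h1.mul h3).unique (hc.mul (h3.mul h1))
  have h6 : k = x * y * x⁻¹ * y⁻¹ := by rw [h5]; group
  rw [h6]
  exact Subgroup.commutator_mem_commutator (h2 D hg hh) (h4 D hg hh)

/-- two permutations, in the image of a solvable group, that are commutators of words in themselves are trivial -/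
theorem not_solvable_of_perfB (hn : n ≤ 16) {a b : ℕ} {w₁ w₂ w₃ w₄ : List Bool} (h : perfB n a b w₁ w₂ w₃ w₄ = true)
    {S : Type*} [Group S] (f : S →* Perm (Fin n)) {x y : S} (hx : PR a (f x)) (hy : PR b (f y)) :
    ¬ Group.IsSolvable S := fun ⟨m, hm⟩ => by
  simp only [perfB, Bool.and_eq_true, Nat.beq_eq, Bool.not_eq_true'] at h
  obtain ⟨⟨⟨-, h3⟩, h4⟩, h5⟩ := h
  have key : ∀ m, f x ∈ (derivedSeries S m).map f ∧ f y ∈ (derivedSeries S m).map f := fun m => by
    induction m with
    | zero => exact ⟨⟨x, trivial, rfl⟩, ⟨y, trivial, rfl⟩⟩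
    | succ m ih =>
      rw [derivedSeries_succ, Subgroup.map_commutator]
      exact ⟨comm_mem hn hx hy hx h4 ih.1 ih.2, comm_mem hn hx hy hy h5 ih.1 ih.2⟩
  have h6 := (key m).1
  rw [hm, Subgroup.map_bot, Subgroup.mem_bot] at h6
  have h7 : allB (fun i => Nat.beq (dig 4 a i) i) n = true := allB_iff.2 fun i hi => by
    rw [Nat.beq_eq, ← hx ⟨i, hi⟩, h6, Perm.one_apply]
  rw [h7] at h3
  cases h3

theorem Ctx.z_perf {a b : ℕ} (w₁ w₂ w₃ w₄ : List Bool) (h : perfB n a b w₁ w₂ w₃ w₄ = true) :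
    C.Z [(a, 1), (b, 1)] := fun v hv => by
  by_contra h0
  have h' := h
  simp only [perfB, Bool.and_eq_true] at h'
  have ha : C.Good a := Ctx.good_of h'.1.1.1.1
  have hb : C.Good b := Ctx.good_of h'.1.1.1.2
  refine not_solvable_of_perfB C.hn h (C.ρ.comp (MulAction.stabilizer K v).subtype)
    (x := ⟨C.el a, ?_⟩) (y := ⟨C.el b, ?_⟩) ha.pr hb.pr (C.sol v h0)
  · simpa using hv (a, 1) (by simp)
  · simpa using hv (b, 1) (by simp)

/-- `L'` contains the conjugates of `L` by `g` -/
noncomputable def conjB (n g : ℕ) (L L' : List (ℕ × ℕ)) : Bool :=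
  evB n g && L.all fun e => L'.any fun e' => Nat.beq e.2 e'.2 && evB n e.1 && evB n e'.1 &&
    Nat.beq (mulc n e'.1 g) (mulc n g e.1)

theorem Ctx.z_conj (g : ℕ) {L L' : List (ℕ × ℕ)} (hL : C.Z L) (h : conjB n g L L' = true) : C.Z L' := fun v hv => by
  simp only [conjB, Bool.and_eq_true, List.all_eq_true, List.any_eq_true, Nat.beq_eq] at h
  have hg : C.Good g := Ctx.good_of h.1
  have := hL ((C.el g)⁻¹ • v) fun e he => by
    obtain ⟨e', he', ⟨⟨h1, h2⟩, h3⟩, h4⟩ := h.2 e he
    have k1 := (Ctx.good_of (C := C) h3).mul_smul hg ((C.el g)⁻¹ • v)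
    have k2 := hg.mul_smul (Ctx.good_of h2) ((C.el g)⁻¹ • v)
    rw [h4, k2, smul_inv_smul, hv e' he', ← h1] at k1
    rw [← smul_comm (C.el g)⁻¹ e.2 v, ← k1, inv_smul_smul]
  rwa [smul_eq_zero_iff_eq] at this

/-! ### Relations -/

/-- a list of relations `(idx, len, code, enc)` -/
inductive St : Type
  | nil : St
  | cons (idx len code e : ℕ) (r : St) : St

/-- force the kernel to evaluate a state -/
noncomputable def forceS {β : Type} (s : St) (k : St → β) : β :=
  St.rec (k St.nil) (fun a b c d r _ => k (St.cons a b c d r)) s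

theorem forceS_eq {β : Type} (s : St) (k : St → β) : forceS s k = k s := by
  cases s <;> rfl

/-- find a relation -/
noncomputable def St.find {β : Type} (s : St) (j : ℕ) (d : β) (k : ℕ → ℕ → β) : β :=
  St.rec d (fun idx len code _ _ ih => Bool.rec ih (k len code) (Nat.beq idx j)) s

/-- a combination of the relations -/
noncomputable def St.cx (s : St) (cf : ℕ) : ℕ :=
  St.rec 0 (fun idx _ _ e _ ih => Nat.add (Nat.mul (dig 4 cf idx) e) ih) s

/-- the weight of a combination of the relations -/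
noncomputable def St.cw (s : St) (cf : ℕ) : ℕ :=
  St.rec 0 (fun idx len _ _ _ ih => Nat.add (Nat.mul (dig 4 cf idx) len) ih) s

/-- add a relation -/
noncomputable def St.push (s : St) (idx len code : ℕ) : St :=
  force idx fun idx => force len fun len => force code fun code => force (enc len code) fun e => St.cons idx len code e s

theorem St.push_eq (s : St) (idx len code : ℕ) : s.push idx len code = St.cons idx len code (enc len code) s := by
  simp only [St.push, force_eq]

/-- a list of points with value zero -/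
def Rel (N : ℕ) (u : ℕ → V) (len code : ℕ) : Prop := (∀ k < len, dig 10 code k < N) ∧ ev u len code = 0

/-- all relations hold -/
def St.Ok (N : ℕ) (u : ℕ → V) (s : St) : Prop :=
  St.rec True (fun _ len code e _ ih => Rel N u len code ∧ e = enc len code ∧ ih) s

variable {N : ℕ} {u : ℕ → V}

theorem St.Ok.push {s : St} (h : s.Ok N u) (idx : ℕ) {len code : ℕ} (h' : Rel N u len code) :
    (s.push idx len code).Ok N u := by
  rw [St.push_eq]; exact ⟨h', rfl, h⟩

theorem St.Ok.find {β : Type} {s : St} (h : s.Ok N u) (j : ℕ) (d : β) (k : ℕ → ℕ → β) :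
    s.find j d k = d ∨ ∃ len code, Rel N u len code ∧ s.find j d k = k len code := by
  induction s with
  | nil => exact Or.inl rfl
  | cons idx len code e r ih =>
    have e1 : (St.cons idx len code e r).find j d k = Bool.rec (r.find j d k) (k len code) (Nat.beq idx j) := rfl
    rw [e1]
    cases Nat.beq idx j
    · exact ih h.2.2
    · exact Or.inr ⟨len, code, h.1, rfl⟩

theorem St.Ok.pk {s : St} (h : s.Ok N u) (cf : ℕ) : Pk N u (s.cx cf) (s.cw cf) 0 := by
  induction s with
  | nil => exact Pk.zero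
  | cons idx len code e r ih =>
    obtain ⟨⟨h1, h2⟩, rfl, h3⟩ := h
    have := ((Pk.enc (u := u) h1).smul (dig 4 cf idx)).add (ih h3)
    rwa [h2, smul_zero, zero_add] at this

/-- the image of a point -/
def tau (tab i : ℕ) : ℕ := dig 10 tab (Nat.mul 2 i)

/-- the image of a list of points -/
noncomputable def mapT (tab len code : ℕ) : ℕ := mk 10 (fun k => tau tab (dig 10 code k)) len

/-- the table describes the action of `g` -/
def TV (N : ℕ) (u : ℕ → V) (g : K) (tab : ℕ) : Prop := ∀ i < N, tau tab i < N ∧ g • u i = u (tau tab i)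

theorem TV.map {g : K} {tab len code : ℕ} (h : TV N u g tab) (h' : ∀ k < len, dig 10 code k < N) :
    (∀ k < len, dig 10 (mapT tab len code) k < N) ∧ ev u len (mapT tab len code) = g • ev u len code := by
  have e : ∀ k < len, dig 10 (mapT tab len code) k = tau tab (dig 10 code k) := fun k hk =>
    dig_mk (fun _ _ => dig_lt _ _ _) hk
  refine ⟨fun k hk => e k hk ▸ (h _ (h' k hk)).1, ?_⟩
  rw [ev, ev, smul_sum]
  exact sum_congr rfl fun k hk => by rw [e k (mem_range.1 hk), (h _ (h' k (mem_range.1 hk))).2]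

/-- instructions -/
inductive Ins : Type
  | acts (idx cnt dat : ℕ) : Ins
  | ini (idx gi pos : ℕ) : Ins
  | fix (idx len code z : ℕ) (cs : List (ℕ × ℕ)) : Ins

/-- apply a generator to a relation -/
noncomputable def act1 (gens : List (ℕ × ℕ)) (idx d : ℕ) (s : St) : St :=
  nthK gens s (fun g => s.find (Nat.div d 16) s fun len code => s.push idx len (mapT g.2 len code)) (Nat.mod d 16)

/-- the listed codes act on a formal sum by the listed scalars -/
noncomputable def fixB (N p : ℕ) (gens : List (ℕ × ℕ)) (s : St) (len code : ℕ) (L : List (ℕ × ℕ)) :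
    List (ℕ × ℕ) → Bool :=
  List.rec (fun _ => true) (fun e _ ih cs => List.rec false (fun c cs' _ =>
    nthK gens false (fun g => Nat.beq g.1 e.1 && Nat.ble e.2 p && force (mapT g.2 len code) fun code' =>
      zeroB N p (Nat.add (Nat.add (enc len code') (Nat.mul (Nat.sub p e.2) (enc len code))) (s.cx c.2))
        (Nat.add (Nat.add len (Nat.mul (Nat.sub p e.2) len)) (s.cw c.2))) c.1 && ih cs') cs) L

/-- one instruction -/
noncomputable def step (N p : ℕ) (L gens : List (ℕ × ℕ)) (Zs : List (List (ℕ × ℕ))) (a : Ins) (s : St) : St :=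
  Ins.rec
    (fun idx cnt dat => Nat.rec s (fun t ih => forceS ih fun s' => force (dig 16 dat t) fun d =>
      act1 gens (Nat.add idx t) d s') cnt)
    (fun idx gi pos => nthK gens s (fun g => nthK L s (fun e => Bool.rec s
      (s.push idx (Nat.succ (Nat.sub p e.2)) (tau g.2 0)) (Nat.beq g.1 e.1 && Nat.ble e.2 p)) pos) gi)
    (fun idx len code z cs => nthK Zs s (fun L' => Bool.rec s (s.push idx len code)
      (allB (fun k => Nat.blt (dig 10 code k) N) len && fixB N p gens s len code L' cs)) z) a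

/-- a program -/
noncomputable def run (N p : ℕ) (L gens : List (ℕ × ℕ)) (Zs : List (List (ℕ × ℕ))) (prog : List Ins) : St → St :=
  List.rec (fun s => s) (fun a _ ih s => forceS (step N p L gens Zs a s) ih) prog

section
variable {C} {L gens : List (ℕ × ℕ)} {Zs : List (List (ℕ × ℕ))}

theorem act1_ok (hg : ∀ g ∈ gens, TV N u (C.el g.1) g.2) (idx d : ℕ) {s : St} (h : s.Ok N u) :
    (act1 gens idx d s).Ok N u := by
  unfold act1
  rcases nthK_spec gens s (fun g => s.find (Nat.div d 16) s fun len code => s.push idx len (mapT g.2 len code))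
    (Nat.mod d 16) with e | ⟨g, hg', e⟩ <;> rw [e]
  · exact h
  rcases h.find (Nat.div d 16) s (fun len code => s.push idx len (mapT g.2 len code)) with e | ⟨len, code, h1, e⟩ <;>
    rw [e]
  · exact h
  obtain ⟨h2, h3⟩ := (hg g hg').map h1.1
  exact h.push idx ⟨h2, by rw [h3, h1.2, smul_zero]⟩

theorem eq_smul_of (C : Ctx K V n p) {x w : V} {s : ℕ} (hs : s ≤ p) (h : x + (p - s) • w = 0) : x = s • w := by
  have := C.tor w
  rw [← Nat.sub_add_cancel hs, add_smul] at this
  rw [eq_neg_of_add_eq_zero_left h, eq_neg_of_add_eq_zero_right this]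

theorem fixB_sound (hg : ∀ g ∈ gens, TV N u (C.el g.1) g.2) {s : St} (h : s.Ok N u) {len code : ℕ}
    (hc : ∀ k < len, dig 10 code k < N) : ∀ (L' cs : List (ℕ × ℕ)), fixB N p gens s len code L' cs = true →
      ∀ e ∈ L', C.el e.1 • ev u len code = e.2 • ev u len code
  | [], _, _ => fun _ he => by cases he
  | _ :: _, [], h' => by cases h'
  | e :: L', c :: cs, h' => by
    have h'' : (nthK gens false (fun g => Nat.beq g.1 e.1 && Nat.ble e.2 p && force (mapT g.2 len code) fun code' =>
      zeroB N p (Nat.add (Nat.add (enc len code') (Nat.mul (Nat.sub p e.2) (enc len code))) (s.cx c.2))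
        (Nat.add (Nat.add len (Nat.mul (Nat.sub p e.2) len)) (s.cw c.2))) c.1 &&
        fixB N p gens s len code L' cs) = true := h'
    rw [Bool.and_eq_true] at h''
    obtain ⟨g, hg', h1⟩ := nthK_true h''.1
    simp only [Bool.and_eq_true, Nat.beq_eq, Nat.ble_eq, force_eq] at h1
    obtain ⟨⟨h2, h3⟩, h4⟩ := h1
    obtain ⟨h5, h6⟩ := (hg g hg').map hc
    have h7 := (((Pk.enc (u := u) h5).add ((Pk.enc hc).smul (p - e.2))).add (h.pk c.2)).eq_zero C.tor h4
    rw [add_zero, h6, h2] at h7
    intro e' he'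
    rcases List.mem_cons.1 he' with rfl | he'
    · exact eq_smul_of C h3 h7
    · exact fixB_sound hg h hc L' cs h''.2 e' he'

theorem step_ok (h0 : 0 < N) (hg : ∀ g ∈ gens, TV N u (C.el g.1) g.2) (hZ : ∀ L' ∈ Zs, C.Z L')
    (hL : ∀ e ∈ L, C.el e.1 • u 0 = e.2 • u 0) (a : Ins) {s : St} (h : s.Ok N u) :
    (step N p L gens Zs a s).Ok N u := by
  cases a with
  | acts idx cnt dat =>
    induction cnt with
    | zero => exact h
    | succ t ih =>
      have e : step N p L gens Zs (Ins.acts idx (t + 1) dat) s = forceS (step N p L gens Zs (Ins.acts idx t dat) s)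
        fun s' => force (dig 16 dat t) fun d => act1 gens (Nat.add idx t) d s' := rfl
      rw [e, forceS_eq, force_eq]
      exact act1_ok hg _ _ ih
  | ini idx gi pos =>
    show St.Ok N u (nthK gens s (fun g => nthK L s (fun e => Bool.rec s
      (s.push idx (Nat.succ (Nat.sub p e.2)) (tau g.2 0)) (Nat.beq g.1 e.1 && Nat.ble e.2 p)) pos) gi)
    rcases nthK_spec gens s (fun g => nthK L s (fun e => Bool.rec s
      (s.push idx (Nat.succ (Nat.sub p e.2)) (tau g.2 0)) (Nat.beq g.1 e.1 && Nat.ble e.2 p)) pos) gi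
      with e | ⟨g, hg', e⟩ <;> rw [e]
    · exact h
    rcases nthK_spec L s (fun e => Bool.rec s
      (s.push idx (Nat.succ (Nat.sub p e.2)) (tau g.2 0)) (Nat.beq g.1 e.1 && Nat.ble e.2 p)) pos
      with e | ⟨c, hc, e⟩ <;> rw [e]
    · exact h
    cases e' : (Nat.beq g.1 c.1 && Nat.ble c.2 p)
    · exact h
    simp only [Bool.and_eq_true, Nat.beq_eq, Nat.ble_eq] at e'
    obtain ⟨h1, h2⟩ := hg g hg' 0 h0
    have h3 : tau g.2 0 < 2 ^ 10 := dig_lt _ _ _
    have d0 : dig 10 (tau g.2 0) 0 = tau g.2 0 := by rw [dig_eq]; simp only [mul_zero, pow_zero, Nat.div_one]; omega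
    have d1 : ∀ k, dig 10 (tau g.2 0) (k + 1) = 0 := fun k => by
      rw [dig_eq, Nat.div_eq_of_lt (h3.trans_le (Nat.pow_le_pow_right (by norm_num) (by omega))), Nat.zero_mod]
    refine h.push idx ⟨fun k _ => ?_, ?_⟩
    · rcases k with _ | k
      · rwa [d0]
      · rwa [d1]
    · have h4 := C.tor (u 0)
      rw [ev, sum_range_succ']
      simp only [d0, d1, sum_const, card_range]
      rw [← h2, e'.1, hL c hc, ← add_smul]
      exact (congrArg (· • u 0) (Nat.sub_add_cancel e'.2)).trans h4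
  | fix idx len code z cs =>
    show St.Ok N u (nthK Zs s (fun L' => Bool.rec s (s.push idx len code)
      (allB (fun k => Nat.blt (dig 10 code k) N) len && fixB N p gens s len code L' cs)) z)
    rcases nthK_spec Zs s (fun L' => Bool.rec s (s.push idx len code)
      (allB (fun k => Nat.blt (dig 10 code k) N) len && fixB N p gens s len code L' cs)) z
      with e | ⟨L', hL', e⟩ <;> rw [e]
    · exact h
    cases e' : (allB (fun k => Nat.blt (dig 10 code k) N) len && fixB N p gens s len code L' cs)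
    · exact h
    simp only [Bool.and_eq_true, allB_iff, Nat.blt_eq] at e'
    exact h.push idx ⟨e'.1, hZ L' hL' _ (fixB_sound hg h e'.1 L' cs e'.2)⟩

theorem run_ok (h0 : 0 < N) (hg : ∀ g ∈ gens, TV N u (C.el g.1) g.2) (hZ : ∀ L' ∈ Zs, C.Z L')
    (hL : ∀ e ∈ L, C.el e.1 • u 0 = e.2 • u 0) (prog : List Ins) : ∀ {s : St}, s.Ok N u →
    (run N p L gens Zs prog s).Ok N u := by
  induction prog with
  | nil => exact fun h => h
  | cons a prog ih =>
    intro s h
    have e : run N p L gens Zs (a :: prog) s = forceS (step N p L gens Zs a s) (run N p L gens Zs prog) := rfl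
    rw [e, forceS_eq]
    exact ih (step_ok h0 hg hZ hL a h)

end

/-- the tables -/
structure Tab : Type where
  N : ℕ
  hg : List ℕ
  hl : ℕ
  hdat : ℕ
  hlen : ℕ
  reps : ℕ
  rdat : ℕ
  gens : List (ℕ × ℕ)

/-- the check of one table -/
noncomputable def tabB (n : ℕ) (T : Tab) (g : ℕ × ℕ) : Bool :=
  evB n g.1 && allB (fun i => force (tau g.2 i) fun t => force (dig 10 g.2 (Nat.succ (Nat.mul 2 i))) fun j =>
    Nat.blt t T.N && Nat.blt j T.hlen && force (dig 40 T.reps i) fun r => force (dig 40 T.reps t) fun r' =>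
      force (dig 40 T.hl j) fun h => Nat.beq (mulc n g.1 r) (mulc n r' h)) T.N

/-- the check of the lists of elements -/
noncomputable def baseB (n : ℕ) (L : List (ℕ × ℕ)) (T : Tab) : Bool :=
  Nat.blt 0 T.N && (T.hg.all fun c => evB n c && L.any fun e => Nat.beq e.1 c && Nat.beq e.2 1) &&
    clB n T.hg T.hl T.hdat T.hlen && clB n (T.gens.map Prod.fst) T.reps T.rdat T.N

/-- the check of the program -/
noncomputable def progB (p : ℕ) (L : List (ℕ × ℕ)) (Zs : List (List (ℕ × ℕ))) (T : Tab) (prog : List Ins)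
    (fin : ℕ) : Bool :=
  forceS (run T.N p L T.gens Zs prog St.nil) fun s => zeroB T.N p (Nat.add 1 (s.cx fin)) (Nat.add 1 (s.cw fin))

theorem Ctx.z_cert {L : List (ℕ × ℕ)} {Zs : List (List (ℕ × ℕ))} (T : Tab) (prog : List Ins) (fin : ℕ)
    (hZ : ∀ L' ∈ Zs, C.Z L') (h1 : baseB n L T = true) (h2 : T.gens.all (tabB n T) = true)
    (h3 : progB p L Zs T prog fin = true) : C.Z L := fun v hv => by
  simp only [baseB, Bool.and_eq_true, Nat.blt_eq, List.all_eq_true, List.any_eq_true, Nat.beq_eq] at h1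
  obtain ⟨⟨⟨h0, k1⟩, k2⟩, k3⟩ := h1
  simp only [tabB, List.all_eq_true, Bool.and_eq_true, allB_iff, force_eq, Nat.blt_eq, Nat.beq_eq] at h2
  have hH := (clB_sound k2 (Q := fun c => C.Good c ∧ C.el c • v = v) ⟨Ctx.good_one, Ctx.one_smul' v⟩
    fun c hc d hd => by
      obtain ⟨k4, e, he, rfl, k5⟩ := k1 c hc
      have k6 : C.Good e.1 := Ctx.good_of k4
      exact ⟨k6.mul hd.1, by rw [k6.mul_smul hd.1, hd.2, hv e he, k5, one_smul]⟩).2
  obtain ⟨hR0, hR⟩ := clB_sound k3 (Q := C.Good) Ctx.good_one fun c hc d hd => by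
    obtain ⟨g, hg, rfl⟩ := List.mem_map.1 hc
    exact (Ctx.good_of (h2 g hg).1).mul hd
  let u : ℕ → V := fun i => C.el (dig 40 T.reps i) • v
  have u0 : u 0 = v := by simp only [u, hR0, Ctx.one_smul']
  have hg : ∀ g ∈ T.gens, TV T.N u (C.el g.1) g.2 := fun g hg i hi => by
    obtain ⟨k4, k5⟩ := h2 g hg
    obtain ⟨⟨k6, k7⟩, k8⟩ := k5 i hi
    refine ⟨k6, ?_⟩
    simp only [u]
    rw [← (Ctx.good_of k4).mul_smul (hR i hi), k8, (hR _ k6).mul_smul (hH _ k7).1, (hH _ k7).2]
  have hs := run_ok h0 hg hZ (u0 ▸ hv) prog (s := St.nil) trivial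
  rw [progB, forceS_eq] at h3
  have := ((Pk.single (u := u) h0).add (hs.pk fin)).eq_zero C.tor h3
  rwa [add_zero, u0] at this

end CfsgLib.CentSol
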