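import Mathlib
import Cfsg.Agent.Lib.CentSol.TwoC
import Cfsg.Agent.Lib.CentSol.Five
import Cfsg.Agent.Lib.AltSec.Sec
import Cfsg.Agent.Lib.Coprime.Action

/-!
# Non-central `p`-elements with non-solvable centraliser

A finite group with a large alternating quotient has a non-central element of `p`-power order whose
centraliser is not solvable.
-/

set_option autoImplicit false

namespace CfsgLib.CentSol

open Subgroup Equiv

universe u

/-- some non-central `p`-element has a non-solvable centraliser -/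
def NS (p : ℕ) (K : Type*) [Group K] : Prop :=
  ∃ x : K, x ∉ center K ∧ (∃ k : ℕ, orderOf x = p ^ k) ∧ ¬ Group.IsSolvable (centralizer ({x} : Set K))

variable {p : ℕ} {K L : Type*} [Group K] [Group L]

theorem NS.of_inj (h : NS p K) (f : K →* L) (hf : Function.Injective f) : NS p L := by
  obtain ⟨x, h1, h2, h3⟩ := h
  refine ⟨f x, fun h => h1 (mem_center_iff.2 fun g => hf ?_), by rwa [orderOf_injective f hf], fun h => h3 ?_⟩
  · rw [map_mul, map_mul, mem_center_iff.1 h]
  · let φ : centralizer ({x} : Set K) →* centralizer ({f x} : Set L) :=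
      (f.comp (centralizer ({x} : Set K)).subtype).codRestrict _ fun c => mem_centralizer_singleton_iff.2 (by
        have := congrArg f (mem_centralizer_singleton_iff.1 c.2)
        rwa [map_mul, map_mul] at this)
    exact Group.isSolvable_of_isSolvable_injective (f := φ) fun a b e =>
      Subtype.ext (hf (congrArg Subtype.val e))

theorem exists_lift_elt [Finite K] [Fact p.Prime] (f : K →* L) (hf : Function.Surjective f) {y : L} {k : ℕ}
    (hy : orderOf y = p ^ k) : ∃ x : K, f x = y ∧ ∃ k : ℕ, orderOf x = p ^ k := by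
  obtain ⟨Q, h1, h2, -⟩ := AltSec.exists_lift f hf (E := zpowers y) (p := p)
    (IsPGroup.of_card (by rw [Nat.card_zpowers, hy]))
  obtain ⟨x, hx, e⟩ : y ∈ Q.map f := h2 ▸ mem_zpowers y
  obtain ⟨m, hm⟩ := IsPGroup.iff_orderOf.1 h1 ⟨x, hx⟩
  exact ⟨x, e, m, by rwa [← orderOf_coe] at hm⟩

theorem not_mem_center {f : K →* L} (hf : Function.Surjective f) {x : K} (h : f x ∉ center L) : x ∉ center K :=
  fun hx => h (mem_center_iff.2 fun g => by
    obtain ⟨g, rfl⟩ := hf g
    rw [← map_mul, ← map_mul, mem_center_iff.1 hx])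

theorem NS.of_central [Finite K] [Fact p.Prime] (h : NS p L) (f : K →* L) (hf : Function.Surjective f)
    (hk : f.ker ≤ center K) : NS p K := by
  obtain ⟨y, h1, ⟨k, h2⟩, h3⟩ := h
  obtain ⟨x, rfl, h4⟩ := exists_lift_elt f hf h2
  refine ⟨x, not_mem_center hf h1, h4, fun h => h3 ?_⟩
  let D : Subgroup K := (centralizer ({f x} : Set L)).comap f
  have hD : ∀ c : D, (c : K) * x * (c : K)⁻¹ * x⁻¹ ∈ center K := fun c => hk (by
    have := mem_centralizer_singleton_iff.1 (mem_comap.1 c.2)
    rw [MonoidHom.mem_ker, map_mul, map_mul, map_mul, this, map_inv, map_inv]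
    group)
  let φ : D →* center K := MonoidHom.mk' (fun c => ⟨_, hD c⟩) fun a b => Subtype.ext (by
    have := mem_center_iff.1 (hD b) (a : K)
    have h' := mem_center_iff.1 (hD b) ((a : K) * x * (a : K)⁻¹ * x⁻¹)
    simp only [coe_mul]
    calc (a : K) * b * x * ((a : K) * b)⁻¹ * x⁻¹ = (a * (b * x * (b : K)⁻¹ * x⁻¹)) * (x * (a : K)⁻¹ * x⁻¹) := by group
      _ = _ := by rw [this, h']; group)
  have hle : centralizer ({x} : Set K) ≤ D := fun c hc => mem_comap.2 (mem_centralizer_singleton_iff.2 (by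
    rw [← map_mul, ← map_mul, mem_centralizer_singleton_iff.1 hc]))
  have : Group.IsSolvable (center K) := Group.isSolvable_of_comm fun a b =>
    Subtype.ext (mem_center_iff.1 b.2 a)
  have : Group.IsSolvable D := Group.isSolvable_of_ker_le_range (inclusion hle) φ fun c hc => by
    have e : (c : K) * x * (c : K)⁻¹ * x⁻¹ = 1 := congrArg Subtype.val (MonoidHom.mem_ker.1 hc)
    refine ⟨⟨c, mem_centralizer_singleton_iff.2 ?_⟩, rfl⟩
    rw [mul_inv_eq_one, mul_inv_eq_iff_eq_mul] at e
    exact e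
  refine Group.isSolvable_of_surjective (f := (f.comp D.subtype).codRestrict _ fun c => c.2) ?_
  rintro ⟨z, hz⟩
  obtain ⟨z, rfl⟩ := hf z
  exact ⟨⟨z, hz⟩, rfl⟩

theorem centralizer_zpowers (x : K) : centralizer (zpowers x : Set K) = centralizer {x} := by
  rw [zpowers_eq_closure, centralizer_closure]

theorem solvable_map {H : Subgroup K} (f : K →* L) (h : Group.IsSolvable H) : Group.IsSolvable (H.map f) :=
  Group.isSolvable_of_surjective (f := f.subgroupMap H) (f.subgroupMap_surjective H)

theorem NS.of_coprime [Finite K] [hp : Fact p.Prime] (h : NS p L) (f : K →* L) (hf : Function.Surjective f)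
    (hk : ¬ p ∣ Nat.card f.ker) : NS p K := by
  obtain ⟨y, h1, ⟨k, h2⟩, h3⟩ := h
  obtain ⟨x, rfl, m, h4⟩ := exists_lift_elt f hf h2
  refine ⟨x, not_mem_center hf h1, ⟨m, h4⟩, fun h => h3 ?_⟩
  have := Coprime.map_centralizer_of_surjective hf (A := zpowers x)
    (by rw [Nat.card_zpowers, h4]; exact (hp.out.coprime_iff_not_dvd.2 hk).pow_left m)
    (Or.inl (Coprime.isSolvable_zpowers x))
  rw [MonoidHom.map_zpowers, centralizer_zpowers, centralizer_zpowers] at this
  exact this ▸ solvable_map f h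

theorem ns_ind [hp : Fact p.Prime] {Q : Type*} [Group Q] (base : NS p Q)
    (star : ∀ (K : Type u) [Group K] (π : K →* Q), Function.Surjective π → ∀ (M : Subgroup K) [M.Normal],
      M ≤ π.ker → (∀ m ∈ M, ∀ k, π k = 1 → k * m = m * k) → (∀ m ∈ M, m ^ p = 1) →
      (∀ m ∈ M, m ≠ 1 → Group.IsSolvable (centralizer ({m} : Set K))) → M = ⊥) :
    ∀ (m : ℕ) (K : Type u) [Group K] [Finite K] (π : K →* Q), Nat.card K = m → Function.Surjective π → NS p K := by
  intro m
  induction m using Nat.strong_induction_on with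
  | _ m ih =>
  intro K _ _ π hm hπ
  subst hm
  by_cases hmin : ∃ H : Subgroup K, H ≠ ⊤ ∧ H.map π = ⊤
  · obtain ⟨H, h1, h2⟩ := hmin
    refine (ih _ ?_ H (π.comp H.subtype) rfl ?_).of_inj H.subtype H.subtype_injective
    · exact (card_le_card_group H).lt_of_ne fun e => h1 (eq_top_of_card_eq H e)
    · rwa [← MonoidHom.range_eq_top, MonoidHom.range_comp, range_subtype]
  have quot : ∀ (M : Subgroup K) [M.Normal], M ≤ π.ker → M ≠ ⊥ → NS p (K ⧸ M) := fun M _ h1 h2 => by
    refine ih _ ?_ (K ⧸ M) (QuotientGroup.lift M π h1) rfl (QuotientGroup.lift_surjective_of_surjective _ _ hπ _)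
    have h3 := card_eq_card_quotient_mul_card_subgroup M
    have h4 := (one_lt_card_iff_ne_bot M).2 h2
    have h5 : 0 < Nat.card (K ⧸ M) := Nat.card_pos
    nlinarith
  have hF : π.ker ≤ frattini K := by
    refine le_iInf₂ fun H (hH : IsCoatom H) => ?_
    by_contra h
    refine hmin ⟨H, hH.1, ?_⟩
    have h1 : H ⊔ π.ker = ⊤ := hH.2 _ (left_lt_sup.2 h)
    have := congrArg (map π) h1
    rwa [Subgroup.map_sup, (Subgroup.map_eq_bot_iff _).2 le_rfl, sup_bot_eq, map_top_of_surjective π hπ] at this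
  by_cases h0 : π.ker = ⊥
  · let e := MulEquiv.ofBijective π ⟨π.ker_eq_bot_iff.1 h0, hπ⟩
    exact base.of_inj e.symm.toMonoidHom e.symm.injective
  by_cases hc : π.ker ⊓ center K = ⊥
  swap
  · exact (quot _ inf_le_left hc).of_central _ (QuotientGroup.mk'_surjective _)
      ((QuotientGroup.ker_mk' _).le.trans inf_le_right)
  let Z : Subgroup K := π.ker ⊓ centralizer π.ker
  have hZ : Z ≠ ⊥ := by
    have := frattini_nilpotent (G := K)
    have : Group.IsNilpotent π.ker := Group.nilpotent_of_mulEquiv (subgroupOfEquivOfLe hF)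
    have : Nontrivial π.ker := (nontrivial_iff_ne_bot _).2 h0
    obtain ⟨⟨z, hz⟩, h1⟩ := ne_bot_iff_exists_ne_one.1 (Group.IsNilpotent.center_ne_bot π.ker)
    refine ne_bot_iff_exists_ne_one.2 ⟨⟨z, z.2, fun k hk => ?_⟩, fun e => h1 ?_⟩
    · exact congrArg Subtype.val (mem_center_iff.1 hz ⟨k, hk⟩)
    · have e' : (z : K) = 1 := congrArg Subtype.val e
      exact Subtype.ext (Subtype.ext e')
  by_cases hd : p ∣ Nat.card Z
  swap
  · exact (quot Z inf_le_left hZ).of_coprime _ (QuotientGroup.mk'_surjective _) (by rwa [QuotientGroup.ker_mk'])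
  let M : Subgroup K :=
    { carrier := {z | z ∈ Z ∧ z ^ p = 1}
      one_mem' := ⟨one_mem _, one_pow _⟩
      mul_mem' := fun {a b} ha hb => ⟨mul_mem ha.1 hb.1, by
        rw [Commute.mul_pow (hb.1.2 a ha.1.1), ha.2, hb.2, mul_one]⟩
      inv_mem' := fun {a} ha => ⟨inv_mem ha.1, by rw [inv_pow, ha.2, inv_one]⟩ }
  have : M.Normal := ⟨fun z hz g => ⟨Normal.conj_mem inferInstance z hz.1 g, by rw [conj_pow, hz.2]; group⟩⟩
  by_contra hns
  have hM := star K π hπ M (fun z hz => hz.1.1) (fun z hz k hk => hz.1.2 k hk) (fun z hz => hz.2) fun z hz h1 => by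
    by_contra h2
    refine hns ⟨z, fun h3 => h1 (mem_bot.1 (hc ▸ ⟨hz.1.1, h3⟩)), ⟨1, ?_⟩, h2⟩
    rw [pow_one]
    exact orderOf_eq_prime hz.2 h1
  obtain ⟨z, hz⟩ := exists_prime_orderOf_dvd_card' p hd
  have h1 : (z : K) ∈ M := ⟨z.2, by rw [← coe_pow, ← hz, pow_orderOf_eq_one, coe_one]⟩
  rw [hM, mem_bot] at h1
  rw [← orderOf_coe, h1, orderOf_one] at hz
  exact hp.out.one_lt.ne hz

theorem star_of {n : ℕ} (hn : n ≤ 16)
    (h : ∀ (K V : Type u) [Group K] [AddCommGroup V] [DistribMulAction K V], Ctx K V n p → ∀ v : V, v = 0)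
    (K : Type u) [Group K] (π : K →* alternatingGroup (Fin n)) (hπ : Function.Surjective π) (M : Subgroup K)
    [hM : M.Normal] (h1 : M ≤ π.ker) (h2 : ∀ m ∈ M, ∀ k, π k = 1 → k * m = m * k) (h3 : ∀ m ∈ M, m ^ p = 1)
    (h4 : ∀ m ∈ M, m ≠ 1 → Group.IsSolvable (centralizer ({m} : Set K))) : M = ⊥ := by
  let : CommGroup M := { (inferInstance : Group M) with
    mul_comm := fun a b => Subtype.ext (h2 b b.2 a (h1 a.2)) }
  let : DistribMulAction K (Additive M) :=
    { smul := fun k v => Additive.ofMul (MulAut.conjNormal k v.toMul)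
      one_smul := fun v => by
        show Additive.ofMul (MulAut.conjNormal 1 v.toMul) = v
        rw [map_one, MulAut.one_apply, ofMul_toMul]
      mul_smul := fun a b v => by
        show Additive.ofMul (MulAut.conjNormal (a * b) v.toMul) =
          Additive.ofMul (MulAut.conjNormal a (MulAut.conjNormal b v.toMul))
        rw [map_mul, MulAut.mul_apply]
      smul_zero := fun a => congrArg Additive.ofMul (map_one (MulAut.conjNormal a))
      smul_add := fun a v w => congrArg Additive.ofMul (map_mul (MulAut.conjNormal a) v.toMul w.toMul) }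
  have key : ∀ (k : K) (v : Additive M), k • v = v ↔ k * (v.toMul : K) = v.toMul * k := fun k v => by
    show Additive.ofMul (MulAut.conjNormal k v.toMul) = Additive.ofMul v.toMul ↔ _
    rw [Additive.ofMul.apply_eq_iff_eq, Subtype.ext_iff, MulAut.conjNormal_apply, mul_inv_eq_iff_eq_mul]
  have := h K (Additive M)
    { ρ := (alternatingGroup (Fin n)).subtype.comp π
      hn := hn
      ker := fun k hk v => (key k v).2 (h2 _ v.toMul.2 k (Subtype.ext hk))
      sur := fun g hg => by
        obtain ⟨k, e⟩ := hπ ⟨g, hg⟩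
        exact ⟨k, congrArg Subtype.val e⟩
      tor := fun v => Additive.toMul.injective (Subtype.ext (h3 _ v.toMul.2))
      sol := fun v hv => by
        have e : MulAction.stabilizer K v = centralizer {(v.toMul : K)} :=
          Subgroup.ext fun k => (key k v).trans mem_centralizer_singleton_iff.symm
        exact e ▸ h4 _ v.toMul.2 fun e => hv (Additive.toMul.injective (Subtype.ext e)) }
  exact eq_bot_iff.2 fun m hm => congrArg (fun v : Additive M => (v.toMul : K)) (this (Additive.ofMul ⟨m, hm⟩))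

theorem ns_alt {n : ℕ} [Fact p.Prime] (hn : n ≤ 16) (x a b d : ℕ) (w₁ w₂ w₃ w₄ : List Bool)
    (h : (perfB n a b w₁ w₂ w₃ w₄ && evB n x && evB n d && Nat.beq (mulc n a x) (mulc n x a) &&
      Nat.beq (mulc n b x) (mulc n x b) && !allB (fun i => Nat.beq (dig 4 (mulc n d x) i) (dig 4 (mulc n x d) i)) n &&
      Nat.beq (wd n x x (List.replicate p false)) (idc n)) = true) : NS p (alternatingGroup (Fin n)) := by
  simp only [Bool.and_eq_true, Nat.beq_eq, Bool.not_eq_true'] at h
  obtain ⟨⟨⟨⟨⟨⟨h1, h2⟩, h3⟩, h4⟩, h5⟩, h6⟩, h7⟩ := h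
  have h' := h1
  simp only [perfB, Bool.and_eq_true] at h'
  obtain ⟨ga, a1, a2⟩ := evB_sound hn h'.1.1.1.1
  obtain ⟨gb, b1, b2⟩ := evB_sound hn h'.1.1.1.2
  obtain ⟨gx, x1, x2⟩ := evB_sound hn h2
  obtain ⟨gd, d1, d2⟩ := evB_sound hn h3
  have hz : (⟨gx, x2⟩ : alternatingGroup (Fin n)) ∉ center _ := fun hz => by
    have e : gd * gx = gx * gd := congrArg Subtype.val (mem_center_iff.1 hz ⟨gd, d2⟩)
    rw [allB_iff.2 fun i hi => by rw [Nat.beq_eq, ← d1.mul x1 ⟨i, hi⟩, ← x1.mul d1 ⟨i, hi⟩, e]] at h6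
    cases h6
  have hw : ∀ m, PR (wd n x x (List.replicate m false)) (gx ^ m) := fun m => by
    induction m with
    | zero => exact PR.one hn
    | succ m ih =>
      have e : wd n x x (List.replicate (m + 1) false) = mulc n x (wd n x x (List.replicate m false)) := force_eq _ _
      rw [e, pow_succ']
      exact x1.mul ih
  refine ⟨⟨gx, x2⟩, hz, ⟨1, ?_⟩, ?_⟩
  · rw [pow_one]
    exact orderOf_eq_prime (Subtype.ext ((h7 ▸ hw p).unique (PR.one hn))) fun e => hz (e ▸ one_mem _)
  · exact not_solvable_of_perfB hn h1 ((alternatingGroup (Fin n)).subtype.comp (centralizer _).subtype)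
      (x := ⟨⟨ga, a2⟩, mem_centralizer_singleton_iff.2 (Subtype.ext ((h4 ▸ a1.mul x1).unique (x1.mul a1)))⟩)
      (y := ⟨⟨gb, b2⟩, mem_centralizer_singleton_iff.2 (Subtype.ext ((h5 ▸ b1.mul x1).unique (x1.mul b1)))⟩) a1 b1

theorem exists_coprime_supplement [Finite K] [Fact p.Prime] (π : K →* L)
    (hπ : Function.Surjective π) (hl : ¬ p ∣ Nat.card L) : ∃ R : Subgroup K, ¬ p ∣ Nat.card R ∧ R.map π = ⊤ := by
  obtain ⟨R, hR, hmin⟩ := (wellFounded_lt (α := Subgroup K)).has_min {R | R.map π = ⊤}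
    ⟨⊤, map_top_of_surjective π hπ⟩
  refine ⟨R, ?_, hR⟩
  let ρ : R →* L := π.comp R.subtype
  have key : ∀ H : Subgroup R, H ⊔ ρ.ker = ⊤ → H = ⊤ := fun H hL => by
    have h1 : (H.map R.subtype).map π = ⊤ := by
      have := congrArg (map ρ) hL
      rwa [Subgroup.map_sup, (Subgroup.map_eq_bot_iff _).2 le_rfl, sup_bot_eq, ← map_map, ← map_map,
        ← MonoidHom.range_eq_map, range_subtype, hR] at this
    have h2 := (map_subtype_le H).eq_or_lt.resolve_right (hmin _ h1)
    exact map_injective R.subtype_injective (by rw [h2, ← MonoidHom.range_eq_map, range_subtype])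
  obtain ⟨P⟩ : Nonempty (Sylow p R) := inferInstance
  have : Finite L := Finite.of_surjective π hπ
  have h1 : (P : Subgroup R) ≤ ρ.ker := by
    rw [← Subgroup.map_eq_bot_iff]
    obtain ⟨k, hk⟩ := (P.2.map ρ).exists_card_eq
    rcases k with _ | k
    · exact card_eq_one.1 hk
    · exact absurd (((dvd_pow_self p k.succ_ne_zero).trans hk.symm.dvd).trans (card_subgroup_dvd_card _)) hl
  have : (P : Subgroup R).Normal := normalizer_eq_top_iff.1 (key _ (P.normalizer_sup_eq_top' h1))
  obtain ⟨H, hL⟩ := exists_right_complement'_of_coprime P.card_coprime_index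
  have h2 : H = ⊤ := key H (top_le_iff.1 (hL.symm.sup_eq_top.ge.trans (sup_le_sup_left h1 H)))
  have h3 : (P : Subgroup R) = ⊥ := by simpa [h2] using hL.disjoint
  have := P.not_dvd_index
  rwa [h3, index_bot] at this

theorem ns_of_coprime [Finite K] [hp : Fact p.Prime] (π : K →* L) (hπ : Function.Surjective π) {c : L}
    (hc : orderOf c = p) (hz : c ∉ center L) (S : Subgroup L) (hS : S ≤ centralizer {c}) (h1 : ¬ p ∣ Nat.card S)
    (h2 : ¬ Group.IsSolvable S) : NS p K := by
  obtain ⟨P, k1, k2, k3⟩ := AltSec.exists_lift π hπ (E := zpowers c) (p := p)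
    (IsPGroup.of_card (n := 1) (by rw [Nat.card_zpowers, hc, pow_one]))
  let Z : Subgroup K := normalizer (P : Set K) ⊓ S.comap π
  let ρ : Z →* S := (π.comp Z.subtype).codRestrict _ fun z => z.2.2
  have hρ : Function.Surjective ρ := fun s => by
    obtain ⟨g, hg, e⟩ := k3 s (centralizer_le_normalizer _ ((centralizer_zpowers c).symm ▸ hS s.2))
    exact ⟨⟨g, hg, mem_comap.2 (e ▸ s.2)⟩, Subtype.ext e⟩
  obtain ⟨R₀, k4, k5⟩ := exists_coprime_supplement ρ hρ h1
  let R := R₀.map Z.subtype
  have hR : R ≤ Z := map_subtype_le _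
  have k6 : Nat.card R = Nat.card R₀ := card_map_of_injective Z.subtype_injective
  have k7 : IsPGroup p (P ⊓ π.ker : Subgroup K) := k1.to_le inf_le_left
  obtain ⟨j, hj⟩ := k7.exists_card_eq
  have k8 := Coprime.map_inf_centralizer π (K := P) (A := R) (hR.trans inf_le_left)
    (by rw [hj, k6]; exact (hp.out.coprime_iff_not_dvd.2 k4).symm.pow_right j)
    (Or.inr (Coprime.isSolvable_of_isPGroup k7))
  have k9 : c ∈ (P ⊓ centralizer (R : Set K)).map π := by
    rw [k8, k2]
    refine ⟨mem_zpowers c, ?_⟩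
    rintro _ ⟨r, hr, rfl⟩
    exact mem_centralizer_singleton_iff.1 (hS (hR hr).2)
  obtain ⟨x, ⟨x1, x2⟩, rfl⟩ := k9
  obtain ⟨m, hm⟩ := IsPGroup.iff_orderOf.1 k1 ⟨x, x1⟩
  refine ⟨x, not_mem_center hπ hz, ⟨m, by rwa [← orderOf_coe] at hm⟩, fun h => h2 ?_⟩
  have hle : R ≤ centralizer {x} := fun r hr => mem_centralizer_singleton_iff.2 (x2 r hr)
  have : Group.IsSolvable R := Group.isSolvable_of_isSolvable_injective (inclusion_injective hle)
  have : Group.IsSolvable R₀ := Group.isSolvable_of_isSolvable_injective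
    (f := Z.subtype.subgroupMap R₀) fun a b e =>
      have e' : ((a : Z) : K) = (b : Z) := congrArg (fun r : R => (r : K)) e
      Subtype.ext (Subtype.ext e')
  have := solvable_map ρ this
  rw [k5] at this
  exact Group.isSolvable_of_surjective (f := (⊤ : Subgroup S).subtype) fun s => ⟨⟨s, trivial⟩, rfl⟩

theorem ns_big [Finite K] [hp : Fact p.Prime] (h7 : 7 ≤ p) (π : K →* alternatingGroup (Fin p ⊕ Fin 5))
    (hπ : Function.Surjective π) : NS p K := by
  obtain ⟨f, f1, f2, f3⟩ := AltSec.exists_alt_hom (Function.Embedding.inl : Fin p ↪ Fin p ⊕ Fin 5)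
  obtain ⟨g, g1, g2, g3⟩ := AltSec.exists_alt_hom (Function.Embedding.inr : Fin 5 ↪ Fin p ⊕ Fin 5)
  have : Nontrivial (Fin p) := Fin.nontrivial_iff_two_le.2 (by omega)
  have hd : p ∣ Fintype.card (alternatingGroup (Fin p)) := by
    have h1 : p ∣ 2 * Fintype.card (alternatingGroup (Fin p)) := by
      rw [two_mul_card_alternatingGroup, Fintype.card_perm, Fintype.card_fin]
      exact Nat.dvd_factorial hp.out.pos le_rfl
    exact (hp.out.dvd_mul.1 h1).resolve_left fun h => by have := Nat.le_of_dvd two_pos h; omega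
  obtain ⟨c, hc⟩ := exists_prime_orderOf_dvd_card p hd
  have hc' : orderOf (f c) = p := by rw [orderOf_injective f f1, hc]
  have e : alternatingGroup (Fin 5) ≃* g.range := MonoidHom.ofInjective g1
  refine ns_of_coprime π hπ hc' ?_ g.range ?_ ?_ fun h => ?_
  · rw [alternatingGroup.center_eq_bot (by simp), mem_bot]
    intro h
    rw [h, orderOf_one] at hc'
    omega
  · rintro _ ⟨s, rfl⟩
    refine mem_centralizer_singleton_iff.2 (Subtype.ext (Equiv.ext fun a => ?_))
    simp only [coe_mul, Perm.mul_apply]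
    rcases a with a | a
    · have h1 := f2 c a
      simp only [Function.Embedding.inl_apply] at h1
      rw [h1, g3 s _ (by simp), g3 s _ (by simp), h1]
    · have h1 := g2 s a
      simp only [Function.Embedding.inr_apply] at h1
      rw [h1, f3 c _ (by simp), f3 c _ (by simp), h1]
  · rw [← Nat.card_congr e.toEquiv, Nat.card_eq_fintype_card]
    intro h
    have h1 : p ∣ Nat.factorial 5 := by
      have := h.mul_left 2
      rwa [two_mul_card_alternatingGroup, Fintype.card_perm, Fintype.card_fin] at this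
    have := hp.out.dvd_factorial.1 h1
    omega
  · have : Group.IsSolvable (alternatingGroup (Fin 5)) := Group.isSolvable_of_isSolvable_injective
      (f := e.toMonoidHom) e.injective
    have h1 := IsSimpleGroup.comm_iff_isSolvable.2 this
    have h2 : center (alternatingGroup (Fin 5)) = ⊥ := alternatingGroup.center_eq_bot (by simp)
    obtain ⟨a, ha⟩ := exists_ne (1 : alternatingGroup (Fin 5))
    exact ha (mem_bot.1 (h2 ▸ mem_center_iff.2 fun b => h1 b a))

theorem ns_two {K : Type u} [Group K] [Finite K] (π : K →* alternatingGroup (Fin 9)) (hπ : Function.Surjective π) :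
    NS 2 K :=
  ns_ind (ns_alt (by norm_num) 0x876542301 0x487653210 0x874653210 0x876543021
    [true] [true, false, true, false] [false, false] [false, true, false, true] (by decide +kernel))
    (star_of (by norm_num) fun _ _ _ _ _ => star2) _ K π rfl hπ

theorem ns_five [Fact (Nat.Prime 5)] {K : Type u} [Group K] [Finite K] (π : K →* alternatingGroup (Fin 10))
    (hπ : Function.Surjective π) : NS 5 K :=
  ns_ind (ns_alt (by norm_num) 0x9876504321 0x5987643210 0x9857643210 0x9876543021
    [true] [true, false, true, false] [false, false] [false, true, false, true] (by decide +kernel))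
    (star_of (by norm_num) fun _ _ _ _ _ => star5) _ K π rfl hπ

end CfsgLib.CentSol
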